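import Cfsg.Agent.Lib.BN.SqTwo
import Cfsg.Agent.Lib.Classical.BN.TwoSq
import Cfsg.Agent.Lib.Classical.BN.Symp
import Cfsg.Agent.Lib.Classical.BN.OrthStd
import Cfsg.Agent.Lib.Classical.BN.Unitary

/-!
The classical groups other than `PSL` in characteristic two: squares in a Sylow subgroup lie in its derived
subgroup.
-/

set_option autoImplicit false
set_option linter.unusedSectionVars false

namespace Cfsg.Agent.Lib.BN.SqTwo

open Cfsg Matrix QuadraticMap Cfsg.Agent.Lib.Classical.BN Cfsg.Agent.Lib.Classical.Quad Cfsg.Agent.Lib.Classical.QuadOmega Cfsg.Agent.Lib.Classical.QuadF2 Cfsg.Agent.Lib.Forms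

variable {F : Type*} [Field F] [Fintype F] [CharP F 2] [Fact (Nat.Prime 2)]

theorem hasSq_of_split {H : Type*} [Group H] [Finite H]
    (h : ∃ D : Split H, IsPGroup 2 D.U ∧ ¬ 2 ∣ Nat.card D.T ∧ ∀ x ∈ D.U, x * x ∈ ⁅D.U, D.U⁆) : HasSq H := by
  obtain ⟨D, hU, hT, hs⟩ := h
  exact ⟨D.U, hU, Split.not_dvd_index hU hT, hs⟩

theorem hasSq_psp {m : ℕ} : HasSq (Cfsg.PSp m F) := by
  let h0 : Matrix.symplecticGroup (Fin m) F →* (spSpace m F).G :=
    (spToGL m F).codRestrict _ fun A => (mem_iso_stdB_iff m _).2 A.2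
  have hb : Function.Bijective h0 := ⟨fun A B h => spToGL_injective m (congrArg Subtype.val h),
    fun g => by
      obtain ⟨A, hA⟩ := exists_spToGL_eq g.2
      exact ⟨A, Subtype.ext hA⟩⟩
  let e := MulEquiv.ofBijective h0 hb
  refine hasSq_of_split ((spSpace m F).exists_split_sq (spSpace_typed m)
    (fun g _ _ h => spSpace_ker m g h) (Or.inl fun x hx => ?_)
    ((QuotientGroup.mk' (Subgroup.center _)).comp e.symm.toMonoidHom)
    ((QuotientGroup.mk'_surjective _).comp e.symm.surjective) fun g hg => by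
      rw [MonoidHom.mem_ker, MonoidHom.comp_apply, QuotientGroup.mk'_apply, QuotientGroup.eq_one_iff,
        Subgroup.mem_center_iff] at hg
      refine Subgroup.mem_center_iff.2 fun x => e.symm.injective ?_
      simpa using hg (e.symm x))
  exact (stdB_isAlt m).self_eq_zero x

theorem hasSq_orth {ι : Type} [Fintype ι] [DecidableEq ι] {m : ℕ} {f : (ι → F) → F}
    {Q : QuadraticForm F (ι → F)} (P : Frame Q m) (he : ∀ v, f v = Q v)
    (hn : Fintype.card ι ≤ 2 * m + 2) (ht : (orthSpace P he).Typed) :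
    HasSq (Cfsg.POmega F f) := by
  let e : Cfsg.Omega F f ≃* (orthSpace P he).G :=
    (Cfsg.Omega F f).equivMapOfInjective _ (Subgroup.subtype_injective _)
  refine hasSq_of_split ((orthSpace P he).exists_split_sq ht
    (fun g hg hp h => orth_ker P he hn hg hp h) (Or.inl fun x hx => ?_)
    ((QuotientGroup.mk' (Subgroup.center _)).comp e.symm.toMonoidHom)
    ((QuotientGroup.mk'_surjective _).comp e.symm.surjective) fun g hg => by
      rw [MonoidHom.mem_ker, MonoidHom.comp_apply, QuotientGroup.mk'_apply, QuotientGroup.eq_one_iff,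
        Subgroup.mem_center_iff] at hg
      refine Subgroup.mem_center_iff.2 fun x => e.symm.injective ?_
      simpa using hg (e.symm x))
  show polar Q x x = 0
  rw [QuadraticMap.polar_self, two_nsmul, CharTwo.add_self_eq_zero]

theorem hasSq_plus {m : ℕ} (hm : 3 ≤ m) : HasSq (Cfsg.POmega F (Cfsg.quadFormPlus m F)) := by
  have hreg : Reg F (Fin m ⊕ Fin m → F) := Or.inr (by simp; omega)
  let P := plusFrame m hreg
  have he : ∀ v, Cfsg.quadFormPlus m F v = qPlus m F v := fun v => (qPlus_apply m v).symm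
  refine hasSq_orth P he (by simp; omega) (Or.inr ⟨orth_isD P he ?_, orth_noFlip P he ?_⟩) <;>
    exact spIx_surj

theorem hasSq_minus {m : ℕ} {a b : F} (hab : Aniso a b) :
    HasSq (Cfsg.POmega F (Cfsg.quadFormMinus m F a b)) := by
  let P := minusFrame m hab
  have he : ∀ v, Cfsg.quadFormMinus m F a b v = minusQ m a b v := fun v => (minusQ_apply m a b v).symm
  refine hasSq_orth P he (by simp; omega) (Or.inl (orth_hasShort P he (c := .inr 0)
    (fun z e => Sum.inr_ne_inl e) ?_))
  simp [minusQ_apply, Cfsg.quadFormMinus]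

theorem hasSq_psu {n q : ℕ} (hF : Fintype.card F = q ^ 2) :
    HasSq (Cfsg.PSU n F q) := by
  classical
  obtain ⟨P, ⟨Fr⟩⟩ := exists_uframe hF n
  let G := (hermSpace Fr).G
  have hmem : ∀ A : Cfsg.SU n F q, P⁻¹ * Matrix.SpecialLinearGroup.toGL A.1 * P ∈ G := fun A => by
    have hval : ∀ x, P.1 *ᵥ ((P⁻¹ * Matrix.SpecialLinearGroup.toGL A.1 * P).1 *ᵥ x) =
        (Matrix.SpecialLinearGroup.toGL A.1).1 *ᵥ (P.1 *ᵥ x) := fun x => by
      rw [← Space.act_mul, ← Space.act_mul, mul_assoc, mul_inv_cancel_left]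
    refine ⟨fun x y => ?_, MonoidHom.mem_ker.2 ?_⟩
    · show Cfsg.hermForm n F q _ _ = Cfsg.hermForm n F q _ _
      rw [hval, hval]
      exact A.2 _ _
    · rw [map_mul, map_mul, map_inv, mul_comm, mul_inv_cancel_left]
      exact Units.ext (by simpa [Matrix.GeneralLinearGroup.det] using A.1.2)
  let h0 : Cfsg.SU n F q →* G := MonoidHom.mk' (fun A => ⟨_, hmem A⟩) fun A B => Subtype.ext (by
    show P⁻¹ * Matrix.SpecialLinearGroup.toGL (A.1 * B.1) * P = _
    rw [map_mul]
    show _ = (P⁻¹ * Matrix.SpecialLinearGroup.toGL A.1 * P) * (P⁻¹ * Matrix.SpecialLinearGroup.toGL B.1 * P)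
    group)
  have hb : Function.Bijective h0 := by
    refine ⟨fun A B h => ?_, fun g => ?_⟩
    · have h1 : P⁻¹ * Matrix.SpecialLinearGroup.toGL A.1 * P = P⁻¹ * Matrix.SpecialLinearGroup.toGL B.1 * P :=
        congrArg Subtype.val h
      have h2 := mul_left_cancel (mul_right_cancel h1)
      exact Subtype.ext (Subtype.ext (congrArg Units.val h2))
    · obtain ⟨g, hg1, hg2⟩ := g
      set k := P * g * P⁻¹ with hk
      have hdet : k.1.det = 1 := by
        have : Matrix.GeneralLinearGroup.det k = 1 := by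
          rw [hk, map_mul, map_mul, map_inv, show Matrix.GeneralLinearGroup.det g = 1 from MonoidHom.mem_ker.1 hg2,
            mul_one, mul_inv_cancel]
        simpa [Matrix.GeneralLinearGroup.det] using congrArg Units.val this
      let A0 : Matrix.SpecialLinearGroup (Fin n) F := ⟨k.1, hdet⟩
      have hA : Matrix.SpecialLinearGroup.toGL A0 = k := Units.ext rfl
      have hmemA : A0 ∈ Cfsg.SU n F q := fun u v => by
        have h1 := hg1 ((P⁻¹).1 *ᵥ u) ((P⁻¹).1 *ᵥ v)
        have hP : ∀ w, P.1 *ᵥ ((P⁻¹).1 *ᵥ w) = w := fun w => by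
          rw [← Space.act_mul, mul_inv_cancel, Space.act_one]
        have hk' : ∀ w, P.1 *ᵥ (g.1 *ᵥ ((P⁻¹).1 *ᵥ w)) = k.1 *ᵥ w := fun w => by
          rw [hk, Space.act_mul, Space.act_mul]
        change Cfsg.hermForm n F q _ _ = Cfsg.hermForm n F q _ _ at h1
        rw [hP, hP, hk', hk'] at h1
        exact h1
      refine ⟨⟨A0, hmemA⟩, Subtype.ext ?_⟩
      show P⁻¹ * Matrix.SpecialLinearGroup.toGL A0 * P = g
      rw [hA, hk]
      group
  let e := MulEquiv.ofBijective h0 hb
  refine hasSq_of_split ((hermSpace Fr).exists_split_sq (hermSpace_typed Fr)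
    (fun g hg hp h => hermSpace_ker Fr hg hp h) ?_
    ((QuotientGroup.mk' (Subgroup.center _)).comp e.symm.toMonoidHom)
    ((QuotientGroup.mk'_surjective _).comp e.symm.surjective) fun g hg => by
      rw [MonoidHom.mem_ker, MonoidHom.comp_apply, QuotientGroup.mk'_apply, QuotientGroup.eq_one_iff,
        Subgroup.mem_center_iff] at hg
      refine Subgroup.mem_center_iff.2 fun x => e.symm.injective ?_
      simpa using hg (e.symm x))
  obtain ⟨θ, hθ⟩ : ∃ θ : F, conjQ hF θ ≠ θ := by
    by_contra! hcon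
    exact Fr.H.ne_refl (RingEquiv.ext hcon)
  have hθ' : θ + conjQ hF θ ≠ 0 := fun h0 => hθ (CharTwo.add_eq_zero.1 h0).symm
  refine Or.inr ⟨θ / (θ + conjQ hF θ), ?_, Fr.H.involutive, fun x y => Fr.H.herm y x, fun x hx => hx⟩
  show θ / (θ + conjQ hF θ) + conjQ hF (θ / (θ + conjQ hF θ)) = 1
  rw [map_div₀, map_add, Fr.H.involutive, add_comm (conjQ hF θ) θ, ← add_div, div_self hθ']

end Cfsg.Agent.Lib.BN.SqTwo
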