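import Cfsg.Agent.Lib.BN.SqTwo
import Cfsg.Agent.Lib.BN.FixSylow.Exceptional

/-!
The exceptional and twisted groups in characteristic two: squares in a Sylow subgroup lie in its derived
subgroup.
-/

set_option autoImplicit false
set_option linter.unusedSectionVars false

namespace Cfsg.Agent.Lib.BN.SqTwo

open Cfsg Cfsg.Lie Cfsg.Agent.Lib Cfsg.Agent.Lib.Chev
open scoped commutatorElement

theorem sqIn_subgroupOf {G : Type*} [Group G] {W K : Subgroup G} (hW : SqIn W) (hle : W ≤ K) :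
    SqIn (W.subgroupOf K) := by
  intro x hx
  have h := hW x.1 (Subgroup.mem_subgroupOf.1 hx)
  rw [← Subgroup.map_subgroupOf_eq_of_le hle, ← Subgroup.map_commutator] at h
  obtain ⟨y, hy, e⟩ := h
  rwa [show x * x = y from Subtype.ext e.symm]

theorem hasSq_of_sub {D : ChevalleyDatum} {F : Type*} [Field F] {G₁ : Subgroup (GL D.Idx F)}
    (d : FixSylow.PData 2 ↥G₁) (hd : d.U = (D.posUnipotent F).subgroupOf G₁)
    (h : SqIn (D.posUnipotent F ⊓ G₁)) : HasSq ↥G₁ := by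
  refine ⟨d.U, d.pgroup, d.not_dvd, ?_⟩
  rw [hd, ← Subgroup.inf_subgroupOf_right]
  exact sqIn_subgroupOf h inf_le_right

variable {D : ChevalleyDatum} {T : Fast} (C : Checked D T) {F : Type*} [Field F] [CharP F 2]
include C

theorem xg_mul_self {r : ℕ} (hr : r < D.nroots) (t : F) : C.xg r t * C.xg r t = 1 := by
  rw [C.xg_add hr, CharTwo.add_self_eq_zero, C.xg_zero]

theorem sqIn_pos : SqIn (D.posUnipotent F) := by
  refine SqIn.of_gens (s := {g | ∃ r, D.IsPosRoot r ∧ ∃ t : F, C.xg r t = g}) ?_ ?_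
  · rw [posUnipotent_eq]
    exact C.grp_le fun r hr t => Subgroup.subset_closure ⟨r, hr, t, rfl⟩
  · rintro _ ⟨r, hr, t, rfl⟩
    refine ⟨by rw [posUnipotent_eq]; exact C.xg_mem (S := {r | D.IsPosRoot r}) hr t, ?_⟩
    rw [xg_mul_self C hr.1]
    exact one_mem _

variable [Fintype F] [Fact (Nat.Prime 2)]

theorem hasSq_chev (hr : 0 < D.rank) : HasSq ↥(D.group F) := by
  obtain ⟨d, hd⟩ := FixSylow.exists_sub (p := 2) C (D.group F) (C.bnPair F)
    (by show _ = _; rw [Subgroup.inf_subgroupOf_right]; rfl)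
    (by show _ = _; rw [Subgroup.inf_subgroupOf_right]; rfl)
    ⟨⟨C.ng 0, C.ng_mem_group hr⟩, 0, hr, C.val_ng 0⟩
    fun b hb _ => by
      obtain ⟨u, hu, d, hd, e⟩ := C.mem_borel.1 hb
      exact ⟨u, hu, C.pos_le_group hu, d, hd, C.diag_le_group hd, e⟩
  refine hasSq_of_sub d hd ?_
  rw [inf_eq_left.2 fun u hu => C.pos_le_group hu]
  exact sqIn_pos C

omit [CharP F 2] [Fintype F] [Fact (Nat.Prime 2)] in
theorem prod_sq : ∀ {l : List (GL D.Idx F)}, (∀ x ∈ l, x * x = 1) → (∀ x ∈ l, ∀ y ∈ l, Commute x y) →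
    l.prod * l.prod = 1
  | [], _, _ => by simp
  | a :: l, h1, h2 => by
    have hc : Commute a l.prod := Commute.list_prod_right _ _ fun x hx => h2 a (by simp) x (by simp [hx])
    rw [List.prod_cons, mul_assoc, ← mul_assoc l.prod, ← hc.eq, mul_assoc,
      prod_sq (fun x hx => h1 x (by simp [hx])) fun x hx y hy => h2 x (by simp [hx]) y (by simp [hy]),
      mul_one]
    exact h1 a (by simp)

end Cfsg.Agent.Lib.BN.SqTwo

namespace Cfsg.Agent.Lib.Chev.Orth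

open Cfsg.Lie Cfsg.Agent.Lib Cfsg.Agent.Lib.BN

variable {D : ChevalleyDatum} {T : Fast} {C : Checked D T} {K : Type*} [Field K] {τ : Twist C K}
  {dd : ℕ} (O : Orth τ dd)
include O

/-- Fixed points in closed groups are generated by orbit elements. -/
theorem fixed_grp_le_of_orbits {M : Subgroup (GL D.Idx K)}
    (h : ∀ r, D.IsPosRoot r → ∀ t, τ.Valid dd r t → τ.orbEl dd r t ∈ M) :
    ∀ (S : Set ℕ), ClosedSet D S → (∀ r ∈ S, τ.ρ r ∈ S) → grp D K S ⊓ τ.fixed ≤ M := by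
  suffices key : ∀ n, ∀ (S : Set ℕ), S.ncard ≤ n → ClosedSet D S → (∀ r ∈ S, τ.ρ r ∈ S) →
      grp D K S ⊓ τ.fixed ≤ M from fun S hS hρ => key _ S le_rfl hS hρ
  intro n
  induction n with
  | zero =>
    intro S hc hS _ g hg
    have hfin : S.Finite := (Set.finite_lt_nat D.nroots).subset fun r hr => (hS.pos r hr).1
    have he : S = ∅ := (Set.ncard_eq_zero hfin).1 (Nat.le_zero.1 hc)
    have hle : grp D K S ≤ M := C.grp_le fun r hr => by rw [he] at hr; exact hr.elim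
    exact hle (Subgroup.mem_inf.1 hg).1
  | succ n ih =>
    intro S hc hS hρ g hg
    obtain ⟨hg1, hg2⟩ := Subgroup.mem_inf.1 hg
    rcases S.eq_empty_or_nonempty with he | hne
    · have hle : grp D K S ≤ M := C.grp_le fun r hr => by rw [he] at hr; exact hr.elim
      exact hle hg1
    have hfin : S.Finite := (Set.finite_lt_nat D.nroots).subset fun r hr => (hS.pos r hr).1
    obtain ⟨r, hr, hsub, hS', hρ', hdec⟩ := O.exists_orbit_split hS hρ hne
    obtain ⟨t, ht, y, hy, hyf, rfl⟩ := hdec g hg1 hg2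
    refine mul_mem (h r (hS.pos r hr) t ht) (ih _ ?_ hS' hρ' (Subgroup.mem_inf.2 ⟨hy, hyf⟩))
    have h1 := Set.ncard_sdiff hsub (hfin.subset hsub)
    have h2 := O.ncard_orbit (hS.pos r hr).1
    have h3 := O.len_pos r
    omega

theorem orbEl_sq [CharP K 2] {r : ℕ} (hr : D.IsPosRoot r) (t : K) :
    τ.orbEl dd r t * τ.orbEl dd r t = 1 := by
  have key : ∀ x ∈ (List.range (τ.len dd r)).map fun i => τ.act^[i] (C.xg r t),
      ∃ s ∈ O.orbit r, ∃ u : K, x = C.xg s u := by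
    intro x hx
    obtain ⟨i, hi, rfl⟩ := List.mem_map.1 hx
    rw [τ.iter_xg hr.1]
    exact ⟨_, ⟨i, List.mem_range.1 hi, rfl⟩, _, rfl⟩
  refine SqTwo.prod_sq C (fun x hx => ?_) fun x hx y hy => ?_
  · obtain ⟨s, hs, u, rfl⟩ := key x hx
    exact SqTwo.xg_mul_self C (O.orbit_pos hr s hs).1 u
  · obtain ⟨s, hs, u, rfl⟩ := key x hx
    obtain ⟨s', hs', u', rfl⟩ := key y hy
    by_cases e : s' = s
    · subst e
      show _ = _
      rw [C.xg_add (O.orbit_pos hr _ hs).1, C.xg_add (O.orbit_pos hr _ hs).1, add_comm]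
    · show _ = _
      rw [C.comm (O.orbit_pos hr s hs).1 (O.orbit_pos hr s' hs').1 e
        (C.ne_neg_of_pos (O.orbit_pos hr s hs) (O.orbit_pos hr s' hs')), ChevalleyDatum.commWord,
        O.no_terms hr hs hs' e]
      simp [C.wg_nil]

theorem sqIn_pos [CharP K 2] : SqIn (D.posUnipotent K ⊓ τ.fixed) := by
  refine SqIn.of_gens
    (s := {g | ∃ r, D.IsPosRoot r ∧ ∃ t : K, τ.Valid dd r t ∧ τ.orbEl dd r t = g}) ?_ ?_
  · rw [posUnipotent_eq]
    refine O.fixed_grp_le_of_orbits ?_ _ C.closedSet_pos fun r hr => τ.ρ_pos r hr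
    exact fun r hr t ht => Subgroup.subset_closure ⟨r, hr, t, ht, rfl⟩
  · rintro _ ⟨r, hr, t, ht, rfl⟩
    refine ⟨Subgroup.mem_inf.2 ⟨?_, O.orbEl_fixed hr.1 ht⟩, by rw [O.orbEl_sq hr]; exact one_mem _⟩
    rw [posUnipotent_eq]
    exact grp_mem_mono (O.orbEl_mem_pos hr t) (O.orbit_pos hr)

end Cfsg.Agent.Lib.Chev.Orth

namespace Cfsg.Agent.Lib.BN.SqTwo

open Cfsg Cfsg.Lie Cfsg.Agent.Lib Cfsg.Agent.Lib.Chev
open scoped commutatorElement

variable {F : Type*} [Field F] [CharP F 2] [Fintype F] [Fact (Nat.Prime 2)]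

theorem hasSq_E6 {q : ℕ} (hq : IsPrimePow q) (hK : Fintype.card F = q ^ 2) :
    HasSq ↥(twistedE6 F q) := by
  obtain ⟨φ, hφ⟩ := exists_frob hq (by norm_num) hK
  have hr : 0 < chevE6.rank := by decide +kernel
  obtain ⟨d, hd⟩ := FixSylow.exists_sub (p := 2) E6.checked _
    ((E6.tw_orth φ).bnPairT (E6.gens φ hφ hK) (E6.diag_fixed_le φ hφ hK))
    rfl rfl ⟨⟨_, (E6.tw_orth φ).wN_mem (E6.gens φ hφ hK) hr⟩, 0, hr, rfl⟩ fun b hb hbG => by
      rw [E6.eq_fixed φ hφ hK] at hbG ⊢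
      exact (E6.tw φ).fixed_borel hb hbG
  refine hasSq_of_sub d hd ?_
  rw [E6.eq_fixed φ hφ hK]
  exact (E6.tw_orth φ).sqIn_pos

theorem hasSq_D4 {q : ℕ} (hq : IsPrimePow q) (hK : Fintype.card F = q ^ 3) :
    HasSq ↥(twistedD4 F q) := by
  obtain ⟨φ, hφ⟩ := exists_frob hq (by norm_num) hK
  have hr : 0 < chevD4.rank := by decide +kernel
  obtain ⟨d, hd⟩ := FixSylow.exists_sub (p := 2) D4.checked _
    ((D4.tw_orth φ).bnPairT (D4.gens φ hφ hK) (D4.diag_fixed_le φ hφ hK))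
    rfl rfl ⟨⟨_, (D4.tw_orth φ).wN_mem (D4.gens φ hφ hK) hr⟩, 0, hr, rfl⟩ fun b hb hbG => by
      rw [D4.eq_fixed φ hφ hK] at hbG ⊢
      exact (D4.tw φ).fixed_borel hb hbG
  refine hasSq_of_sub d hd ?_
  rw [D4.eq_fixed φ hφ hK]
  exact (D4.tw_orth φ).sqIn_pos

end Cfsg.Agent.Lib.BN.SqTwo
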