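import Cfsg.Agent.Lib.BN.SqTwo
import Cfsg.Agent.Lib.BN.SplitGen
import Cfsg.Agent.Lib.BN.SLSplit

/-!
The split data of `SL_n` are saturated; squares in a Sylow 2-subgroup of `PSL_n` over a field of characteristic two.
-/

set_option autoImplicit false
set_option linter.unusedSectionVars false

namespace Cfsg.Agent.Lib.BN.SLSplit

open Matrix Cfsg.Agent.Lib.SLBlocks

universe u

variable {F : Type u} [Field F] [Finite F] {n : ℕ}

theorem ref_inj {k k' : Node n} (he : (ref k' : SpecialLinearGroup (Fin n) F) = ref k) : k' = k := by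
  by_contra hne
  have h1 := ref_lo (F := F) k'
  have h2 := ref_mono (F := F) k k'.1 (hi k')
  rw [he] at h1
  refine one_ne_zero (h1.symm.trans (h2 fun e => ?_))
  rw [Equiv.swap_apply_def] at e
  have := lo_ne_hi k'
  split_ifs at e with e1 e2
  · exact hne (Subtype.ext e1)
  · have e1' := congrArg Fin.val e
    have e2' := congrArg Fin.val e2
    simp [hi] at e1' e2'
    omega
  · exact this e.symm

theorem split_sat : (split F n).Sat := by
  intro m hm hno b hb hb'
  obtain ⟨τ, hτ⟩ := inv_mem hm
  have hanti : ∀ k : Node n, τ.symm (hi k) < τ.symm k.1 := by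
    intro k
    refine lt_of_le_of_ne (not_lt.1 fun h => hno (ref k) ⟨k, rfl⟩ ?_) fun e => lo_ne_hi k (τ.symm.injective e).symm
    rintro _ ⟨k', t, he, rfl⟩
    obtain rfl := ref_inj he
    have := conj_tr hτ (lo_ne_hi k') t
    rw [inv_inv] at this
    rw [this]
    exact tr_mem_bor _ h _
  have key : ∀ (d : ℕ) (i j : Fin n), j.val = i.val + d + 1 → τ.symm j < τ.symm i := by
    intro d
    induction d with
    | zero =>
      intro i j h
      have := hanti ⟨i, by have := j.isLt; omega⟩
      rwa [show hi ⟨i, _⟩ = j from Fin.ext (show i.val + 1 = j.val by omega)] at this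
    | succ d ih =>
      intro i j h
      have := j.isLt
      let k : Node n := ⟨⟨i.val + d + 1, by omega⟩, show i.val + d + 1 + 1 < n by omega⟩
      have h2 := hanti k
      rw [show hi k = j from Fin.ext (show i.val + d + 1 + 1 = j.val by omega)] at h2
      exact h2.trans (ih i k.1 rfl)
  have hd : ∀ i j : Fin n, j ≠ i → ent b i j = 0 := by
    intro i j hne
    rcases lt_or_gt_of_ne hne with h | h
    · exact mem_bor.1 hb i j h
    · have hlt := key (j.val - i.val - 1) i j (by have : i.val < j.val := h; omega)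
      have h0 : ent (m⁻¹ * b * m) (τ.symm i) (τ.symm j) = 0 := mem_bor.1 hb' _ _ hlt
      have h1 := hτ.conj_apply τ.bijective b (τ.symm i) (τ.symm j)
      simp only [inv_inv, Equiv.apply_symm_apply] at h1
      have h1' : ent (m⁻¹ * b * m) (τ.symm i) (τ.symm j) * ent m⁻¹ (τ.symm j) j =
          ent m⁻¹ (τ.symm i) i * ent b i j := h1
      rw [h0, zero_mul] at h1'
      refine (mul_eq_zero.1 h1'.symm).resolve_left ?_
      have := hτ.apply_ne_zero (τ.symm i)
      rwa [τ.apply_symm_apply] at this
  exact ⟨hb, 1, fun i j h => hd i j h⟩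

theorem tr_sq [CharP F 2] {a b : Fin n} (h : a ≠ b) (t : F) :
    (tr h t * tr h t : SpecialLinearGroup (Fin n) F) = 1 :=
  mul_eq_one_iff_eq_inv.2 (by rw [tr_inv, CharTwo.neg_eq])

/-- Squares in a Sylow 2-subgroup of `PSL_n` in characteristic two. -/
theorem hasSq_psl [CharP F 2] [Fact (Nat.Prime 2)] (hn : 0 < n) :
    HasSq (Matrix.ProjectiveSpecialLinearGroup (Fin n) F) := by
  classical
  let f := QuotientGroup.mk' (Subgroup.center (SpecialLinearGroup (Fin n) F))
  have hU : IsPGroup 2 (split F n).U := isPGroup_upU (F := F) (n := n)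
  have hT := not_dvd_tor (F := F) (n := n) (p := 2)
  have hs : SqIn (split F n).U := Split.sq_mem_commutator split_sat hU hT fun s _ u hu => by
    obtain ⟨k, t, -, rfl⟩ := hu
    exact Or.inl (tr_sq _ _)
  have hk : f.ker ≤ (split F n).T := by
    rw [QuotientGroup.ker_mk']
    exact center_le hn
  let D := (split F n).map f (QuotientGroup.mk'_surjective _) hk
  exact ⟨D.U, hU.map f, Split.not_dvd_index (hU.map f)
    (fun h => hT (h.trans (Subgroup.card_map_dvd _ f))), hs.map f⟩

end Cfsg.Agent.Lib.BN.SLSplit
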