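import Cfsg.Agent.Lib.BN.SqTwo.Exceptional
import Cfsg.Agent.Lib.Chev.TwistF4ReeFrame
import Cfsg.Agent.Lib.Suz.Facts

/-!
The groups `²F₄` and the Suzuki groups: squares in a Sylow 2-subgroup lie in its derived subgroup.
-/

set_option autoImplicit false
set_option linter.unusedSectionVars false

namespace Cfsg.Agent.Lib.BN.SqTwo

open Cfsg Cfsg.Lie Cfsg.Agent.Lib Cfsg.Agent.Lib.Chev
open scoped commutatorElement

/-- Fixed points in the positive unipotent group are generated by class elements. -/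
theorem fixed_pos_le {D : ChevalleyDatum} {T : Fast} {C : Checked D T} {K : Type*} [Field K]
    {τ : Twist C K} {S : ClsSpec} (O : Cls τ S) {M : Subgroup (GL D.Idx K)}
    (hcls : ∀ c ∈ S.classes, ∀ rest, O.Entry c rest → grp D K {r | r ∈ c.roots} ⊓ τ.fixed ≤ M) :
    grp D K {r | D.IsPosRoot r} ⊓ τ.fixed ≤ M := by
  have hA := C.closedSet_pos
  have hρ : ∀ r ∈ {r | D.IsPosRoot r}, τ.ρ r ∈ {r | D.IsPosRoot r} := fun r hr => τ.ρ_pos r hr
  suffices key : ∀ L : List ClsEntry, T.suffixCheck S τ.ρ L = true → (∀ c ∈ L, c ∈ S.classes) →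
      grp D K ({r | D.IsPosRoot r} ∩ {r | r ∈ ClsSpec.union L}) ⊓ τ.fixed ≤ M by
    refine le_trans (inf_le_inf_right _ (grp_mono fun r hr => ?_)) (key _ O.classes_check fun c h => h)
    exact ⟨hr, O.pos_mem_union hr⟩
  intro L
  induction L with
  | nil =>
    intro _ _
    refine inf_le_left.trans (C.grp_le fun r hr => ?_)
    simp [ClsSpec.union] at hr
  | cons c L ih =>
    intro hL hsub
    have hL' := hL
    simp only [Fast.suffixCheck, Bool.and_eq_true] at hL'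
    have hE := O.entry (O.union_lt hL'.2) hL'.1
    have ih' := ih hL'.2 fun d hd => hsub d (by simp [hd])
    intro g hg
    obtain ⟨x, hx, y, hy, rfl⟩ := O.split hL hA hρ hE.pos (Subgroup.mem_inf.1 hg).1
      (Subgroup.mem_inf.1 hg).2 fun r hr => ⟨hρ r hr.1, O.ρ_union hL'.2 r hr.2⟩
    exact mul_mem (hcls c (hsub c (by simp)) _ hE hx) (ih' hy)

variable {K : Type*} [Field K] [CharP K 2] [Fintype K] {m : ℕ}

theorem pow_succ_bij (hK : Fintype.card K = 2 ^ (2 * m + 1)) :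
    Function.Bijective fun x : K => x ^ (2 ^ m + 1) := by
  obtain ⟨-, h'⟩ := exists_powP Nat.prime_two hK
  obtain ⟨θ, hθ⟩ := h' m
  refine Finite.injective_iff_bijective.1 fun a b (h : a ^ (2 ^ m + 1) = b ^ (2 ^ m + 1)) => ?_
  by_cases hb : b = 0
  · subst hb
    rw [zero_pow (Nat.succ_ne_zero _)] at h
    exact eq_zero_of_pow_eq_zero h
  have h1 : (a / b) ^ (2 ^ m + 1) = 1 := by rw [div_pow, h, div_self (pow_ne_zero _ hb)]
  set r := a / b with hr
  have hr0 : r ≠ 0 := fun h0 => by rw [h0, zero_pow (Nat.succ_ne_zero _)] at h1; exact zero_ne_one h1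
  have h2 : r ^ 2 ^ m = r⁻¹ := eq_inv_of_mul_eq_one_left (by rw [← pow_succ]; exact h1)
  have h3 := F4.per2 (F4.hper' (m := m) hK) r
  rw [h2, inv_pow, h2, inv_inv, sq] at h3
  exact (div_eq_one_iff_eq hb).1 ((mul_eq_right₀ hr0).1 h3)

theorem add_frob_ne (hm : 1 ≤ m) (hK : Fintype.card K = 2 ^ (2 * m + 1)) :
    ∃ r : K, r + r ^ 2 ^ m ≠ 0 := by
  classical
  by_contra! h
  obtain ⟨-, h'⟩ := exists_powP Nat.prime_two hK
  obtain ⟨θ, hθ⟩ := h' m
  have hfix : ∀ r : K, r ^ 2 ^ m = r := fun r => (CharTwo.add_eq_zero.1 (h r)).symm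
  have hall : ∀ r : K, r = 0 ∨ r = 1 := fun r => by
    have h3 := F4.per2 (F4.hper' (m := m) hK) r
    rw [hfix, hfix] at h3
    rcases mul_eq_zero.1 (show r * (r - 1) = 0 by linear_combination h3) with e | e
    exacts [Or.inl e, Or.inr (sub_eq_zero.1 e)]
  have : Fintype.card K ≤ 2 := by
    rw [← Finset.card_univ]
    refine (Finset.card_le_card (t := ({0, 1} : Finset K)) fun x _ => ?_).trans Finset.card_le_two
    rcases hall x with rfl | rfl <;> simp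
  rw [hK] at this
  have h8 : 2 ^ 3 ≤ 2 ^ (2 * m + 1) := Nat.pow_le_pow_right (by norm_num) (by omega)
  omega

theorem sqIn_ree (θ : K ≃+* K) (hθ : ∀ t : K, θ t = t ^ 2 ^ m) (hK : Fintype.card K = 2 ^ (2 * m + 1))
    (hm : 1 ≤ m) : SqIn (chevF4.posUnipotent K ⊓ (F4.reeTwist θ).fixed) := by
  set U := chevF4.posUnipotent K ⊓ (F4.reeTwist θ).fixed
  let O := F4.ree_cls θ
  refine SqIn.of_gens (s := {g | g ∈ U ∧ g * g ∈ ⁅U, U⁆}) ?_ fun g hg => hg
  show chevF4.posUnipotent K ⊓ (F4.reeTwist θ).fixed ≤ _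
  rw [posUnipotent_eq]
  refine fixed_pos_le O fun c _ rest hE z hz => Subgroup.subset_closure ?_
  have hU : grp chevF4 K {r | r ∈ c.roots} ⊓ (F4.reeTwist θ).fixed ≤ U := by
    show _ ≤ chevF4.posUnipotent K ⊓ (F4.reeTwist θ).fixed
    rw [posUnipotent_eq]
    exact inf_le_inf_right _ (grp_mono fun r hr => hE.pos r hr)
  refine ⟨hU hz, ?_⟩
  rw [← O.map_class hE] at hz
  obtain ⟨y, hy, rfl⟩ := hz
  set f := (MulAut.conj (O.mvN c.moves)).toMonoidHom
  have hcomm : ∀ a ∈ grp chevF4 K (O.B c.node) ⊓ (F4.reeTwist θ).fixed, ∀ b ∈ grp chevF4 K (O.B c.node) ⊓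
      (F4.reeTwist θ).fixed, f ⁅a, b⁆ ∈ ⁅U, U⁆ := fun a ha b hb => by
    rw [map_commutatorElement]
    exact Subgroup.commutator_mem_commutator (hU (O.map_class hE ▸ ⟨a, ha, rfl⟩)) (hU (O.map_class hE ▸ ⟨b, hb, rfl⟩))
  rw [← map_mul]
  have hj := hE.node_lt
  rw [F4.rank_eq'] at hj
  by_cases hp : c.node = 0 ∨ c.node = 3
  · rw [show O.B c.node = {r | r ∈ [33, 24]} from F4.base_pair hp] at hy
    obtain ⟨t, rfl⟩ := (F4.fixed_pair_iff θ hθ (F4.hper' hK) y).1 hy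
    have e : F4.aE m t * F4.aE m t = 1 := by rw [F4.aE_add, CharTwo.add_self_eq_zero, F4.aE_zero]
    show f (F4.aE m t * F4.aE m t) ∈ _
    rw [e, map_one]
    exact one_mem _
  · have hB : O.B c.node = {r | r ∈ [27, 25, 28, 30]} := F4.base_quad (by omega)
    rw [hB] at hy hcomm
    have hmem : ∀ x u, F4.bE m x u ∈ grp chevF4 K {r | r ∈ [27, 25, 28, 30]} ⊓ (F4.reeTwist θ).fixed :=
      fun x u => (F4.fixed_quad_iff θ hθ (F4.hper' hK) _).2 ⟨x, u, rfl⟩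
    obtain ⟨t, u, rfl⟩ := (F4.fixed_quad_iff θ hθ (F4.hper' hK) y).1 hy
    obtain ⟨r, hr⟩ := add_frob_ne hm hK
    obtain ⟨a, ha⟩ := (pow_succ_bij hK).2 (t ^ (2 ^ m + 1) / (r + r ^ 2 ^ m))
    simp only at ha
    rw [eq_div_iff hr] at ha
    have e : F4.bE m t u * F4.bE m t u = ⁅F4.bE m a 0, F4.bE m (a * r) 0⁆ := by
      rw [F4.bE_sq hK, commutatorElement_def, eq_mul_inv_iff_mul_eq, eq_mul_inv_iff_mul_eq,
        F4.bE_mul hK, F4.bE_mul hK, F4.bE_mul hK, zero_pow (by positivity)]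
      congr 1
      · simp [add_comm]
      · rw [← ha, pow_succ]
        simp only [zero_mul, add_zero, zero_add, mul_pow]
        linear_combination (a ^ 2 ^ m * a * r ^ 2 ^ m) * (CharTwo.two_eq_zero (R := K))
    show f (F4.bE m t u * F4.bE m t u) ∈ _
    rw [e]
    exact hcomm _ (hmem _ _) _ (hmem _ _)

theorem hasSq_F4Ree [Fact (Nat.Prime 2)] (hm : 1 ≤ m) (hK : Fintype.card K = 2 ^ (2 * m + 1)) :
    HasSq ↥(twistedF4 K (2 ^ m)) := by
  obtain ⟨-, h'⟩ := exists_powP Nat.prime_two hK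
  obtain ⟨θ, hθ⟩ := h' m
  have hr : 0 < chevF4.rank := by decide +kernel
  obtain ⟨d, hd⟩ := FixSylow.exists_sub (p := 2) F4.checked _
    ((F4.ree_cls θ).bnPairC (F4.ree_gens θ hθ hK) (F4.diag_fixed_le θ hθ hK))
    rfl rfl ⟨⟨_, (F4.ree_gens θ hθ hK).wN_mem 0 hr⟩, 0, hr, rfl⟩ fun b hb hbG => by
      rw [F4.eq_fixed θ hθ hK] at hbG ⊢
      exact (F4.reeTwist θ).fixed_borel hb hbG
  refine hasSq_of_sub d hd ?_
  rw [F4.eq_fixed θ hθ hK]
  exact sqIn_ree θ hθ hK hm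

theorem hasSq_suz {F : Type*} [Field F] [Fintype F] [CharP F 2] {m : ℕ} (c : Suz.Ctx F m) :
    HasSq ↥(Cfsg.Sz F m) := by
  haveI : Fact (Nat.Prime 2) := ⟨Nat.prime_two⟩
  obtain ⟨P, hP⟩ := Suz.exists_sylow c
  refine ⟨Suz.uSub c, hP ▸ P.isPGroup', hP ▸ P.not_dvd_index, fun x hx => ?_⟩
  rw [← Subgroup.map_subtype_commutator, ← Suz.center_eq_commutator_uSub c]
  refine ⟨⟨x * x, mul_mem hx hx⟩, (Suz.center_uSub c _).2 ?_, rfl⟩
  obtain ⟨a, b, rfl⟩ := (Suz.mem_uSub c).1 hx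
  exact ⟨_, Suz.uG_sq c a b⟩

end Cfsg.Agent.Lib.BN.SqTwo
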